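import Cfsg.Agent.H810.RC.Lin

/-!
# S3510, row D, box D7b: the case distinction for linear lifts, `q` odd (helper810)

`dead_lin_core` : the contradiction from the boxes D1 (`lr_tv`), D3 (`dead_D`), D4 (`dead_dec`), D5 (`m_rule_K`),
D6 (`dead_sym`, `dead_her`), D7a (`four_cases`), which are hypotheses here (instances for the given family).
-/

set_option autoImplicit false
open Cfsg

namespace Cfsg.Agent.H810.RC

open MulAction Module Cfsg.Agent.H106.RC Cfsg.Agent.H520.RC Cfsg.Agent.H727.GW

variable {F : Type} {V : Type} [Field F] [Finite F] [AddCommGroup V] [Module F V] [FiniteDimensional F V]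
  {B : LinearMap.BilinForm F V} {G : Type} [Group G] {Ω : Type} [Nonempty Ω] [MulAction G Ω]
  {N : Subgroup G} {ρ : ↥(Sp B) →* G} {ι : Type} {x : ι → G} {r : ι → ℕ} {M : ι → SS B}

omit [Finite F] [Nonempty Ω] in
/-- the members commute exactly -/
theorem comm_all (E : SpEnv Ω N ρ) (hx : PF x r) (hM : ∀ i, Lf ρ (x i) (M i)) (hl : ∀ i, (M i).IsLin) (i j : ι)
    (v : V) : M i (M j v) = M j (M i v) := by
  by_cases hij : i = j
  · rw [hij]
  · exact comm_lf E (hM i) (hM j) (hl i) (hl j) (hx.comm i j)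
      ((Nat.coprime_primes (hx.prime i) (hx.prime j)).2 fun h => hij (hx.inj h)) (hx.pow i) (hx.pow j) v

/-- the prime of the field -/
theorem charP_of (hx : PF x r) {i : ι} (hi : ¬ (r i).Coprime (Nat.card F)) : CharP F (r i) := by
  have := Fintype.ofFinite F
  obtain ⟨p, hp⟩ := CharP.exists F
  obtain ⟨n, hpp, hc⟩ := FiniteField.card F p
  rw [Nat.card_eq_fintype_card, hc] at hi
  have h1 : r i ∣ p ^ (n : ℕ) := by
    by_contra h
    exact hi (((hx.prime i).coprime_iff_not_dvd).2 h)
  have h2 : r i = p := (Nat.prime_dvd_prime_iff_eq (hx.prime i) hpp).1 ((hx.prime i).dvd_of_dvd_pow h1)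
  rw [h2]
  exact hp

theorem cast_ne {p : ℕ} [CharP F p] {n : ℕ} (hn : n.Coprime (Nat.card F)) (hp : p.Prime) : (n : F) ≠ 0 := by
  intro h
  rw [CharP.cast_eq_zero_iff F p] at h
  have := Fintype.ofFinite F
  obtain ⟨q, hq⟩ := CharP.exists F
  obtain ⟨m, hqp, hc⟩ := FiniteField.card F q
  have h1 : p = q := CharP.eq F ‹CharP F p› hq
  subst h1
  rw [Nat.card_eq_fintype_card, hc] at hn
  have h2 : p ∣ n.gcd (p ^ (m : ℕ)) := Nat.dvd_gcd h (dvd_pow_self p m.pos.ne')
  rw [hn.gcd_eq_one] at h2
  exact hp.one_lt.ne' (Nat.dvd_one.1 h2)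

omit [Nonempty Ω] in
/-- case (i): an invariant nondegenerate subspace -/
theorem case_dec (E : SpEnv Ω N ρ) (h2 : (2 : F) ≠ 0) (hx : PF x r) (hcov : Cov Ω x)
    (hM : ∀ i, Lf ρ (x i) (M i)) (hl : ∀ i, (M i).IsLin)
    (hex : ¬ (Nat.card F = 3 ∧ finrank F V = 4))
    (h5 : Nat.card F = 5 → finrank F V = 4 → ∀ i j, r i = 2 → r j = 3 → False)
    (bLR : ∀ (i0 : ι) (e : V) (c : F), e ≠ 0 → c ≠ 0 →
      (∀ ω : Ω, ρ (tv E.form e c) • ω = ω ∨ ∃ i, i ≠ i0 ∧ x i • ω = ω) →
      (∀ i, i ≠ i0 → ∃ a : F, M i e = a • e) → (∀ i, i ≠ i0 → (r i).Coprime (Nat.card F)) → False)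
    (bDec : ∀ A : Submodule F V, A ≠ ⊥ → A ≠ ⊤ → (∀ a ∈ A, (∀ b ∈ A, B a b = 0) → a = 0) →
      (∀ i, ∀ v ∈ A, M i v ∈ A) → (∀ i, ¬ (r i).Coprime (Nat.card F) → ¬ (M i).ScalOn A) →
      (4 ≤ finrank F A ∨ 5 < Nat.card F ∨
        (3 < Nat.card F ∧ ∀ i j, ¬ (M i).ScalOn A → ¬ (M j).ScalOn A → i = j)) → False)
    {A : Submodule F V} (hA0 : A ≠ ⊥) (hA1 : A ≠ ⊤) (hA : Nd B A) (hi : ∀ i, ∀ v ∈ A, M i v ∈ A) : False := by
  have hcard : 3 ≤ Nat.card F := by
    have := Fintype.ofFinite F
    have h0 : 1 < Nat.card F := Finite.one_lt_card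
    by_contra hlt
    have h3 : Nat.card F = 2 := by omega
    rw [Nat.card_eq_fintype_card] at h3
    apply h2
    have h4 := FiniteField.cast_card_eq_zero F
    rw [h3] at h4
    exact_mod_cast h4
  have hodd : Nat.card F ≠ 4 := by
    intro h4
    have := Fintype.ofFinite F
    rw [Nat.card_eq_fintype_card] at h4
    have h5 := FiniteField.cast_card_eq_zero F
    rw [h4] at h5
    have h6 : (2 : F) * 2 = 0 := by
      have : ((4 : ℕ) : F) = 2 * 2 := by norm_num
      rw [← this, h5]
    rcases mul_eq_zero.1 h6 with h7 | h7 <;> exact h2 h7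
  -- the two summands
  have hdim := E.dim
  have hAe := even_nd E.form hA
  have hBn := nd_orth E.form hA
  have hBe := even_nd E.form hBn
  have hsum := finrank_orth E.form hA
  have hB0 := orth_ne_bot E.form hA hA1
  have hB1 := orth_ne_top E.form hA hA0
  have hBi : ∀ i, ∀ v ∈ B.orthogonal A, M i v ∈ B.orthogonal A := fun i => inv_orth E.form (hl i) (hi i)
  have hpos : ∀ {W : Submodule F V}, W ≠ ⊥ → 0 < finrank F W := fun {W} hW => by
    rw [Nat.pos_iff_ne_zero]
    intro h0
    exact hW (Submodule.finrank_eq_zero.1 h0)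
  have hA2 : 2 ≤ finrank F A := by
    have := hpos hA0
    obtain ⟨k, hk⟩ := hAe
    omega
  have hB2 : 2 ≤ finrank F (B.orthogonal A) := by
    have := hpos hB0
    obtain ⟨k, hk⟩ := hBe
    omega
  have hpow : ∀ i, ∃ b : F, b ≠ 0 ∧ ∀ v, (M i)^[r i] v = b • v := fun i => E.pow_scal (hM i) (hx.pow i)
  -- (K2) a plane when `dim V = 4`
  have K2 : finrank F V = 4 → ∀ W : Submodule F V, W ≠ ⊥ → W ≠ ⊤ → Nd B W → (∀ i, ∀ v ∈ W, M i v ∈ W) →
      finrank F W = 2 → (∀ i, ¬ (r i).Coprime (Nat.card F) → ¬ (M i).ScalOn W) → False := by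
    intro h4 W hW0 hW1 hW hWi hWd hWu
    have hF3 : 3 < Nat.card F := by
      rcases lt_or_eq_of_le hcard with h | h
      · exact h
      · exact absurd ⟨h.symm, h4⟩ hex
    by_cases h6 : 5 < Nat.card F
    · exact bDec W hW0 hW1 hW hWi hWu (Or.inr (Or.inl h6))
    have hF5 : Nat.card F = 5 := by omega
    refine bDec W hW0 hW1 hW hWi hWu (Or.inr (Or.inr ⟨hF3, ?_⟩))
    by_cases hu : ∃ i0, ¬ (r i0).Coprime (Nat.card F)
    · obtain ⟨i0, hi0⟩ := hu
      have : CharP F (r i0) := charP_of hx hi0
      obtain ⟨t, c, hc, hMt, hxt, htp⟩ := exists_unip E (hx.prime i0) (hM i0) (hl i0) (hx.pow i0)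
      have hti : ∀ v ∈ W, t.1 v ∈ W := by
        intro v hv
        have h7 := W.smul_mem c⁻¹ (hWi i0 v hv)
        rw [hMt, smul_smul, inv_mul_cancel₀ hc, one_smul] at h7
        exact h7
      have hne : ∃ v ∈ W, t.1 v ≠ v := by
        by_contra hno
        push Not at hno
        apply hWu i0 hi0
        refine ⟨c, hc, fun v hv => ?_⟩
        rw [hMt, hno v hv]
      obtain ⟨e, -, -, c', -, -, hsc⟩ := plane_unip E.form (hx.prime i0) htp hW hWd hti hne
      have key : ∀ j, j ≠ i0 → (M j).ScalOn W := by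
        intro j hj
        refine hsc (M j) (r j) (hl j) (hWi j) ?_ ?_ ?_
        · intro v
          have h7 := comm_all E hx hM hl i0 j v
          rw [hMt, hMt, (hl j).map_smul] at h7
          have h8 := congrArg (fun w => c⁻¹ • w) h7
          simp only [smul_smul, inv_mul_cancel₀ hc, one_smul] at h8
          exact h8.symm
        · have hco : (r j).Coprime (Nat.card F) := by
            by_contra hno
            have h9 := charP_of hx hno
            exact hj (hx.inj (CharP.eq F h9 this))
          exact cast_ne hco (hx.prime i0)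
        · obtain ⟨b, -, hb⟩ := hpow j
          exact ⟨b, hb⟩
      intro i j hni hnj
      have h7 : i = i0 := by
        by_contra h
        exact hni (key i h)
      have h8 : j = i0 := by
        by_contra h
        exact hnj (key j h)
      rw [h7, h8]
    · push Not at hu
      intro i j hni hnj
      have h7 := ord_five hF5 (hl i) hWd (hWi i) (hx.prime i) (hu i) (hpow i) hni
      have h8 := ord_five hF5 (hl j) hWd (hWi j) (hx.prime j) (hu j) (hpow j) hnj
      apply hx.inj
      rcases h7 with h7 | h7 <;> rcases h8 with h8 | h8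
      · rw [h7, h8]
      · exact (h5 hF5 h4 i j h7 h8).elim
      · exact (h5 hF5 h4 j i h8 h7).elim
      · rw [h7, h8]
  -- both summands admissible
  have K12 : (∀ i, ¬ (r i).Coprime (Nat.card F) → ¬ (M i).ScalOn A) →
      (∀ i, ¬ (r i).Coprime (Nat.card F) → ¬ (M i).ScalOn (B.orthogonal A)) → False := by
    intro hu1 hu2
    by_cases h4 : 4 ≤ finrank F A
    · exact bDec A hA0 hA1 hA hi hu1 (Or.inl h4)
    by_cases h4' : 4 ≤ finrank F (B.orthogonal A)
    · exact bDec _ hB0 hB1 hBn hBi hu2 (Or.inl h4')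
    obtain ⟨k, hk⟩ := hAe
    obtain ⟨k', hk'⟩ := hBe
    exact K2 (by omega) A hA0 hA1 hA hi (by omega) hu1
  by_cases hu : ∃ i0, ¬ (r i0).Coprime (Nat.card F)
  swap
  · push Not at hu
    exact K12 (fun i h => absurd (hu i) h) (fun i h => absurd (hu i) h)
  obtain ⟨i0, hi0⟩ := hu
  have hcp : CharP F (r i0) := charP_of hx hi0
  obtain ⟨t, c, hc, hMt, hxt, htp⟩ := exists_unip E (hx.prime i0) (hM i0) (hl i0) (hx.pow i0)
  have honly : ∀ j, j ≠ i0 → (r j).Coprime (Nat.card F) := by
    intro j hj
    by_contra hno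
    have h9 := charP_of hx hno
    exact hj (hx.inj (CharP.eq F h9 hcp))
  have htc : ∀ j v, (M j) (t.1 v) = t.1 (M j v) := by
    intro j v
    have h7 := comm_all E hx hM hl i0 j v
    rw [hMt, hMt, (hl j).map_smul] at h7
    have h8 := congrArg (fun w => c⁻¹ • w) h7
    simp only [smul_smul, inv_mul_cancel₀ hc, one_smul] at h8
    exact h8.symm
  -- one summand on which `u` is a scalar
  have key : ∀ W : Submodule F V, W ≠ ⊥ → W ≠ ⊤ → Nd B W → (∀ i, ∀ v ∈ W, M i v ∈ W) →
      ¬ (M i0).ScalOn W → (M i0).ScalOn (B.orthogonal W) → False := by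
    intro W hW0 hW1 hW hWi hns hs
    have hev := even_nd E.form hW
    have hWu : ∀ i, ¬ (r i).Coprime (Nat.card F) → ¬ (M i).ScalOn W := by
      intro i hi
      by_cases h : i = i0
      · rw [h]; exact hns
      · exact absurd (honly i h) hi
    by_cases h4 : 4 ≤ finrank F W
    · exact bDec W hW0 hW1 hW hWi hWu (Or.inl h4)
    have hWd : finrank F W = 2 := by
      have := hpos hW0
      obtain ⟨k, hk⟩ := hev
      omega
    have hti : ∀ v ∈ W, t.1 v ∈ W := by
      intro v hv
      have h7 := W.smul_mem c⁻¹ (hWi i0 v hv)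
      rw [hMt, smul_smul, inv_mul_cancel₀ hc, one_smul] at h7
      exact h7
    have hne : ∃ v ∈ W, t.1 v ≠ v := by
      by_contra hno
      push Not at hno
      apply hns
      refine ⟨c, hc, fun v hv => ?_⟩
      rw [hMt, hno v hv]
    obtain ⟨e, he, he0, c', hc', htv, hsc⟩ := plane_unip E.form (hx.prime i0) htp hW hWd hti hne
    have hscal : ∀ j, j ≠ i0 → (M j).ScalOn W := by
      intro j hj
      refine hsc (M j) (r j) (hl j) (hWi j) (htc j) (cast_ne (honly j hj) (hx.prime i0)) ?_
      obtain ⟨b, -, hb⟩ := hpow j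
      exact ⟨b, hb⟩
    -- `t = 1` on the complement
    have ht1 : ∀ v ∈ B.orthogonal W, t.1 v = v := by
      obtain ⟨a, ha, hsa⟩ := hs
      have h7 : ∀ v ∈ B.orthogonal W, t.1 v = (c⁻¹ * a) • v := by
        intro v hv
        have h8 := hsa v hv
        rw [hMt] at h8
        rw [mul_smul, ← h8, smul_smul, inv_mul_cancel₀ hc, one_smul]
      have h8 : ∀ (n : ℕ) (v : V), v ∈ B.orthogonal W → t.1^[n] v = (c⁻¹ * a) ^ n • v := by
        intro n
        induction n with
        | zero => intro v _; rw [pow_zero, one_smul]; rfl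
        | succ n ih =>
          intro v hv
          rw [Function.iterate_succ_apply, h7 v hv, iter_smul (fun a v => _root_.map_smul t.1 a v), ih v hv,
            smul_smul, pow_succ']
      obtain ⟨v, hv, hv0⟩ := Submodule.exists_mem_ne_zero_of_ne_bot (orth_ne_bot E.form hW hW1)
      have h9 : (c⁻¹ * a) ^ (r i0) = 1 := by
        have h10 := h8 (r i0) v hv
        rw [htp] at h10
        have h11 : ((c⁻¹ * a) ^ (r i0) - 1) • v = 0 := by rw [sub_smul, one_smul, ← h10, sub_self]
        rcases smul_eq_zero.1 h11 with h12 | h12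
        · exact sub_eq_zero.1 h12
        · exact absurd h12 hv0
      have : Fact (r i0).Prime := ⟨hx.prime i0⟩
      have h10 : c⁻¹ * a = 1 := by
        apply frobenius_inj F (r i0)
        show (c⁻¹ * a) ^ (r i0) = 1 ^ (r i0)
        rw [h9, one_pow]
      intro v hv
      rw [h7 v hv, h10, one_smul]
    have htt : t = tv E.form e c' := by
      apply Subtype.ext
      apply LinearEquiv.ext
      intro v
      obtain ⟨a, ha, b, hb, rfl⟩ := decomp E.form hW v
      rw [_root_.map_add, _root_.map_add, htv a ha, ht1 b hb]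
      congr 1
      rw [tv_apply, (mem_orth E.form).1 hb e he, mul_zero, zero_smul, add_zero]
    refine bLR i0 e c' he0 hc' ?_ ?_ honly
    · intro ω
      obtain ⟨i, hi⟩ := hcov ω
      by_cases h : i = i0
      · left
        rw [← htt, ← hxt, ← h]
        exact hi
      · right
        exact ⟨i, h, hi⟩
    · intro i hi
      obtain ⟨a, -, ha⟩ := hscal i hi
      exact ⟨a, ha e he⟩
  have hu1 : ∀ W : Submodule F V, ¬ (M i0).ScalOn W → ∀ i, ¬ (r i).Coprime (Nat.card F) → ¬ (M i).ScalOn W := by
    intro W hns i hi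
    by_cases h : i = i0
    · rw [h]; exact hns
    · exact absurd (honly i h) hi
  by_cases hsA : (M i0).ScalOn A
  · by_cases hsB : (M i0).ScalOn (B.orthogonal A)
    · -- `t` would be trivial
      have h7 : ∀ W : Submodule F V, W ≠ ⊥ → (M i0).ScalOn W → ∀ v ∈ W, t.1 v = v := by
        intro W hW0 hs
        obtain ⟨a, ha, hsa⟩ := hs
        have h7 : ∀ v ∈ W, t.1 v = (c⁻¹ * a) • v := by
          intro v hv
          have h8 := hsa v hv
          rw [hMt] at h8
          rw [mul_smul, ← h8, smul_smul, inv_mul_cancel₀ hc, one_smul]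
        have h8 : ∀ (n : ℕ) (v : V), v ∈ W → t.1^[n] v = (c⁻¹ * a) ^ n • v := by
          intro n
          induction n with
          | zero => intro v _; rw [pow_zero, one_smul]; rfl
          | succ n ih =>
            intro v hv
            rw [Function.iterate_succ_apply, h7 v hv, iter_smul (fun a v => _root_.map_smul t.1 a v), ih v hv,
              smul_smul, pow_succ']
        obtain ⟨v, hv, hv0⟩ := Submodule.exists_mem_ne_zero_of_ne_bot hW0
        have h9 : (c⁻¹ * a) ^ (r i0) = 1 := by
          have h10 := h8 (r i0) v hv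
          rw [htp] at h10
          have h11 : ((c⁻¹ * a) ^ (r i0) - 1) • v = 0 := by rw [sub_smul, one_smul, ← h10, sub_self]
          rcases smul_eq_zero.1 h11 with h12 | h12
          · exact sub_eq_zero.1 h12
          · exact absurd h12 hv0
        have : Fact (r i0).Prime := ⟨hx.prime i0⟩
        have h10 : c⁻¹ * a = 1 := by
          apply frobenius_inj F (r i0)
          show (c⁻¹ * a) ^ (r i0) = 1 ^ (r i0)
          rw [h9, one_pow]
        intro v hv
        rw [h7 v hv, h10, one_smul]
      apply hx.ne i0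
      rw [E.eq_one_iff (hM i0)]
      refine ⟨c, hc, fun v => ?_⟩
      obtain ⟨a, ha, b, hb, rfl⟩ := decomp E.form hA v
      rw [hMt, _root_.map_add, h7 A hA0 hsA a ha, h7 _ hB0 hsB b hb]
    · refine key _ hB0 hB1 hBn hBi hsB ?_
      -- the double complement
      have h8 : B.orthogonal (B.orthogonal A) = A := by
        symm
        apply Submodule.eq_of_le_of_finrank_eq
        · intro a ha
          rw [mem_orth E.form]
          intro b hb
          exact E.form.swap0 ((mem_orth E.form).1 hb a ha)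
        · have h9 := finrank_orth E.form hBn
          omega
      rw [h8]
      exact hsA
  · by_cases hsB : (M i0).ScalOn (B.orthogonal A)
    · exact key A hA0 hA1 hA hi hsA hsB
    · exact K12 (hu1 A hsA) (hu1 _ hsB)

omit [Finite F] [FiniteDimensional F V] in
/-- a polynomial in a self-adjoint map is self-adjoint -/
theorem aeval_adj {θ : Module.End F V} (hθs : ∀ u v, B (θ u) v = B u (θ v)) (P : Polynomial F) (u v : V) :
    B (Polynomial.aeval θ P u) v = B u (Polynomial.aeval θ P v) := by
  have hpow : ∀ (n : ℕ) (u v : V), B ((θ ^ n) u) v = B u ((θ ^ n) v) := by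
    intro n
    induction n with
    | zero => intro u v; rfl
    | succ n ih =>
      intro u v
      rw [pow_succ, Module.End.mul_apply, ih, hθs]
      rw [← Module.End.mul_apply, ← pow_succ', pow_succ]
  induction P using Polynomial.induction_on' with
  | add P Q hP hQ =>
    rw [map_add, LinearMap.add_apply, LinearMap.add_apply, map_add, LinearMap.add_apply, map_add, hP, hQ]
  | monomial n a =>
    rw [Polynomial.aeval_monomial, Module.End.mul_apply, Module.End.mul_apply, Module.algebraMap_end_apply,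
      Module.algebraMap_end_apply, LinearMap.map_smul₂, _root_.map_smul, hpow]

omit [Finite F] in
/-- case (ii): a field of self-adjoint operators -/
theorem case_K (E : SpEnv Ω N ρ) (hx : PF x r) (hcov : Cov Ω x)
    (hM : ∀ i, Lf ρ (x i) (M i)) (hl : ∀ i, (M i).IsLin)
    (θ : Module.End F V) (hθs : ∀ u v, B (θ u) v = B u (θ v)) (hθ : Irreducible (minpoly F θ))
    (hcm : ∀ i v, M i (θ v) = θ (M i v))
    (bK : ∀ ω : Ω, (∀ t : ↥(Sp B), (∀ v, t.1 (θ v) = θ (t.1 v)) → ρ t • ω = ω) ∨
      ∃ i, (∃ P : Polynomial F, ∀ v, M i v = Polynomial.aeval θ P v) ∧ x i • ω = ω)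
    (bSym : ∀ (i0 : ι) (δ : F), ¬ IsSquare δ → (∀ v, M i0 (M i0 v) = δ • v) → (M i0).l = δ → False) : False := by
  -- members in the field
  by_cases hJ : ∃ i, ∃ P : Polynomial F, ∀ v, M i v = Polynomial.aeval θ P v
  · obtain ⟨i, P, hP⟩ := hJ
    have hsq : ∀ v, M i (M i v) = (M i).l • v := by
      intro v
      have h1 : ∀ u, B u (M i (M i v) - (M i).l • v) = 0 := by
        intro u
        have h3 : B (M i u) (M i v) = B u (M i (M i v)) := by
          rw [hP u, aeval_adj hθs P u (M i v), ← hP]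
        rw [map_sub, _root_.map_smul, smul_eq_mul, ← h3, (hl i).form, sub_self]
      exact sub_eq_zero.1 (E.form.nd' _ h1)
    refine bSym i _ ?_ hsq rfl
    rintro ⟨a, ha⟩
    have h1 : Polynomial.aeval θ ((P - Polynomial.C a) * (P + Polynomial.C a)) = 0 := by
      apply LinearMap.ext
      intro v
      have h2 : (P - Polynomial.C a) * (P + Polynomial.C a) = P * P - Polynomial.C (a * a) := by
        rw [Polynomial.C_mul]; ring
      rw [h2, map_sub, map_mul, Polynomial.aeval_C, LinearMap.sub_apply, Module.End.mul_apply,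
        Module.algebraMap_end_apply, ← hP, ← hP, hsq, ha, sub_self]
      rfl
    have h2 : minpoly F θ ∣ (P - Polynomial.C a) * (P + Polynomial.C a) := minpoly.dvd F θ h1
    have hscal : ∀ b : F, b * b = a * a → (∀ v, M i v = b • v) → False := by
      intro b hb h
      apply hx.ne i
      rw [E.eq_one_iff (hM i)]
      refine ⟨b, ?_, h⟩
      rintro rfl
      rw [mul_zero] at hb
      exact (M i).hl (by rw [ha, ← hb])
    rcases hθ.prime.dvd_or_dvd h2 with h3 | h3
    · obtain ⟨R, hR⟩ := h3
      refine hscal a rfl fun v => ?_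
      have h4 : Polynomial.aeval θ (P - Polynomial.C a) = 0 := by rw [hR, map_mul, minpoly.aeval, zero_mul]
      have h5 := LinearMap.congr_fun h4 v
      rw [map_sub, Polynomial.aeval_C, LinearMap.sub_apply, Module.algebraMap_end_apply, LinearMap.zero_apply,
        sub_eq_zero] at h5
      rw [hP, h5]
    · obtain ⟨R, hR⟩ := h3
      refine hscal (-a) (by ring) fun v => ?_
      have h4 : Polynomial.aeval θ (P + Polynomial.C a) = 0 := by rw [hR, map_mul, minpoly.aeval, zero_mul]
      have h5 := LinearMap.congr_fun h4 v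
      rw [map_add, Polynomial.aeval_C, LinearMap.add_apply, Module.algebraMap_end_apply, LinearMap.zero_apply,
        add_eq_zero_iff_eq_neg] at h5
      rw [hP, h5, neg_smul]
  · have hall : ∀ ω : Ω, ∀ t : ↥(Sp B), (∀ v, t.1 (θ v) = θ (t.1 v)) → ρ t • ω = ω := by
      intro ω
      rcases bK ω with h | ⟨i, h, -⟩
      · exact h
      · exact absurd ⟨i, h⟩ hJ
    by_cases h2 : ∃ k, r k ≠ 2
    · obtain ⟨k, hk⟩ := h2
      have hl0 := (M k).hl
      let t0 : V ≃ₗ[F] V := ((hl k).lin.trans (hl k).lin).trans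
        (LinearEquiv.smulOfUnit (Units.mk0 (M k).l⁻¹ (inv_ne_zero hl0)))
      have ht0 : ∀ v, t0 v = (M k).l⁻¹ • M k (M k v) := fun v => rfl
      have htm : t0 ∈ Sp B := by
        intro u v
        rw [ht0, ht0, _root_.map_smul, LinearMap.map_smul₂, (hl k).form, (hl k).form, smul_eq_mul, smul_eq_mul]
        field_simp
      have h3 : x k * x k = ρ ⟨t0, htm⟩ := by
        refine E.eq_of_lf ((hM k).mul (hM k)) hl0 fun v => ?_
        show M k (M k v) = (M k).l • t0 v
        rw [ht0, smul_smul, mul_inv_cancel₀ hl0, one_smul]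
      have h4 : ∀ v, t0 (θ v) = θ (t0 v) := by
        intro v
        rw [ht0, ht0, hcm, hcm, _root_.map_smul]
      have h5 : x k * x k = 1 := by
        apply E.env.single
        intro ω
        rw [h3]
        exact hall ω _ h4
      rw [← pow_two] at h5
      have h6 : orderOf (x k) ∣ 2 := orderOf_dvd_of_pow_eq_one h5
      have h7 : orderOf (x k) ∣ r k := orderOf_dvd_of_pow_eq_one (hx.pow k)
      rcases (Nat.dvd_prime (hx.prime k)).1 h7 with h8 | h8
      · exact hx.ne k (orderOf_eq_one_iff.1 h8)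
      · rw [h8] at h6
        rcases (Nat.dvd_prime Nat.prime_two).1 h6 with h9 | h9
        · exact (hx.prime k).one_lt.ne' h9
        · exact hk h9
    · push Not at h2
      obtain ⟨ω0⟩ := (inferInstance : Nonempty Ω)
      obtain ⟨k, -⟩ := hcov ω0
      apply hx.ne k
      apply E.env.single
      intro ω
      obtain ⟨i, hi⟩ := hcov ω
      have h3 : i = k := hx.inj (by rw [h2 i, h2 k])
      rw [← h3]
      exact hi

end Cfsg.Agent.H810.RC
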