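import Cfsg.Agent.H810.RC.Core
import Cfsg.Agent.H544.RC.Four
import Cfsg.Agent.H686.RC.DeadD
import Cfsg.Agent.H579.RC.Sym
import Cfsg.Agent.H520.RC.SpLR
import Cfsg.Agent.H67.RC.DeadDec
import Cfsg.Agent.H8.RC.DeadHer

/-!
# S3510, row D, box D7b: linear lifts, `q` odd (helper810)

`dead_lin_of` : everything but the boxes D4 (`dead_dec`, hypothesis `bDec`) and D6 (`dead_her`, hypothesis `bHer`).
`dead_lin` : the box D7b.
-/

set_option autoImplicit false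
open Cfsg

namespace Cfsg.Agent.H810.RC

open MulAction Module Cfsg.Agent.H106.RC Cfsg.Agent.H520.RC Cfsg.Agent.H727.GW

variable {F : Type} {V : Type} [Field F] [Finite F] [AddCommGroup V] [Module F V] [FiniteDimensional F V]
  {B : LinearMap.BilinForm F V} {G : Type} [Group G] [Finite G] {Ω : Type} [Finite Ω] [Nonempty Ω] [MulAction G Ω]
  {N : Subgroup G} {ρ : ↥(Sp B) →* G} {ι : Type} [Finite ι] {x : ι → G} {r : ι → ℕ} {M : ι → SS B}

/-- **D7b**: linear lifts, `q` odd -/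
theorem dead_lin_of (E : SpEnv Ω N ρ) (hIH : IH (Nat.card N)) (h2 : (2 : F) ≠ 0) (hx : PF x r) (hcov : Cov Ω x)
    (hM : ∀ i, Lf ρ (x i) (M i)) (hl : ∀ i, (M i).IsLin)
    (hex : ¬ (Nat.card F = 3 ∧ finrank F V = 4))
    (h5 : Nat.card F = 5 → finrank F V = 4 → ∀ i j, r i = 2 → r j = 3 → False)
    (bDec : ∀ A : Submodule F V, A ≠ ⊥ → A ≠ ⊤ → (∀ a ∈ A, (∀ b ∈ A, B a b = 0) → a = 0) →
      (∀ i, ∀ v ∈ A, M i v ∈ A) → (∀ i, ¬ (r i).Coprime (Nat.card F) → ¬ (M i).ScalOn A) →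
      (4 ≤ finrank F A ∨ 5 < Nat.card F ∨
        (3 < Nat.card F ∧ ∀ i j, ¬ (M i).ScalOn A → ¬ (M j).ScalOn A → i = j)) → False)
    (bHer : ∀ (θ : Module.End F V) (δ : F), ¬ IsSquare δ → (∀ v, θ (θ v) = δ • v) →
      (∀ u v, B (θ u) v = - B u (θ v)) → (∀ i v, M i (θ v) = θ (M i v)) →
      (∀ i j, (¬ ∃ a b : F, ∀ v, M i v = a • v + b • θ v) →
        (¬ ∃ a b : F, ∀ v, M j v = a • v + b • θ v) → i = j) → False) : False := by
  have hcomm := comm_all E hx hM hl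
  -- at most one member has order `p`
  have hp1 : ∀ i j, ¬ (r i).Coprime (Nat.card F) → ¬ (r j).Coprime (Nat.card F) → i = j := fun i j hi hj =>
    hx.inj (CharP.eq F (charP_of hx hi) (charP_of hx hj))
  -- a member of order prime to `p`
  have hex0 : ∃ i, (r i).Coprime (Nat.card F) := by
    by_contra hno
    push Not at hno
    obtain ⟨ω0⟩ := (inferInstance : Nonempty Ω)
    obtain ⟨k, -⟩ := hcov ω0
    apply hx.ne k
    apply E.env.single
    intro ω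
    obtain ⟨i, hi⟩ := hcov ω
    rw [← hp1 i k (hno i) (hno k)]
    exact hi
  obtain ⟨k0, hk0⟩ := hex0
  have hns : ∀ i, ¬ (M i).IsScal := fun i h => hx.ne i ((E.eq_one_iff (hM i)).2 h)
  have hY : ∀ i, ∀ (k : {i // (r i).Coprime (Nat.card F)}) (v : V),
      ((hl i).lin : V →ₗ[F] V) (M k.1 v) = M k.1 (((hl i).lin : V →ₗ[F] V) v) := fun i k v => hcomm i k.1 v
  rcases Cfsg.Agent.H544.RC.four_cases E.form h2 (fun k : {i // (r i).Coprime (Nat.card F)} => M k.1)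
      (fun k => hl k.1) (fun k l v => hcomm k.1 l.1 v) (n := fun k => r k.1) (fun k => (hx.prime k.1).pos)
      (fun k => k.2) (fun k => by
        obtain ⟨a, -, ha⟩ := E.pow_scal (hM k.1) (hx.pow k.1)
        exact ⟨a, ha⟩) ⟨⟨k0, hk0⟩, hns k0⟩ with
    ⟨A, hA0, hA1, hA, hAi⟩ | ⟨θ, hθs, hθ, hθ1, hθc⟩ | ⟨W, W', hW, ht, ht', hs, hs', hWi⟩ | ⟨θ, δ, hδ, hsq, hθs, hs, hθc⟩
  · refine case_dec E h2 hx hcov hM hl hex h5 ?_ bDec hA0 hA1 hA (fun i => hAi _ (hY i))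
    intro i0 e c he hc hcov' hfix hco
    refine Cfsg.Agent.H520.RC.lr_tv E h2 (ι := {i // i ≠ i0}) (r := fun i => r i.1) (x := fun i => x i.1)
      (M := fun i => M i.1) (fun i => hx.prime i.1) (fun i => hx.pow i.1) (fun i j => hx.comm i.1 j.1)
      (fun i => hx.ne i.1) (fun i => hM i.1) he hc ?_ (fun i => hfix i.1 i.2) (fun i => hco i.1 i.2)
    intro ω
    rcases hcov' ω with h | ⟨i, h, h'⟩
    · exact Or.inl h
    · exact Or.inr ⟨⟨i, h⟩, h'⟩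
  · refine case_K E hx hcov hM hl θ hθs hθ (fun i v => hθc _ (hY i) v) ?_ ?_
    · exact Cfsg.Agent.H236.RC.D5.m_rule_K E hIH (by
        rintro ⟨h3, -⟩
        apply h2
        have := Fintype.ofFinite F
        rw [Nat.card_eq_fintype_card] at h3
        have h4 := FiniteField.cast_card_eq_zero F
        rw [h3] at h4
        exact_mod_cast h4) hx hcov hM hl θ hθs hθ hθ1 (fun i v => hθc _ (hY i) v)
        (fun h3 h4 => absurd ⟨h3, h4⟩ hex)
    · intro i0 δ hδ hsq hmu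
      exact Cfsg.Agent.H579.RC.dead_sym E hIH h2 hx hcov hM hl i0 hδ hsq hmu (fun h3 h4 => absurd ⟨h3, h4⟩ hex)
  · refine Cfsg.Agent.H686.RC.DD.dead_D E h2 hx hcov hM hl hW ht ht' (fun i => (hWi _ (hY i)).1)
      (fun i => (hWi _ (hY i)).2) ?_ hex
    intro i j hi hj
    exact hp1 i j (fun h => hi (hs ⟨i, h⟩)) (fun h => hj (hs ⟨j, h⟩))
  · refine bHer θ δ hδ hsq hθs (fun i v => hθc _ (hY i) v) ?_
    intro i j hi hj
    exact hp1 i j (fun h => hi (hs ⟨i, h⟩)) (fun h => hj (hs ⟨j, h⟩))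

/-- **D7b** -/
theorem dead_lin (E : SpEnv Ω N ρ) (hIH : IH (Nat.card N)) (h2 : (2 : F) ≠ 0) (hx : PF x r) (hcov : Cov Ω x)
    (hM : ∀ i, Lf ρ (x i) (M i)) (hl : ∀ i, (M i).IsLin)
    (hA6 : ∀ g : MulAut (alternatingGroup (Fin 6)), orderOf g ≠ 6 → RCe (alternatingGroup (Fin 6)) g)
    (hex : ¬ (Nat.card F = 3 ∧ finrank F V = 4))
    (h5 : Nat.card F = 5 → finrank F V = 4 → ∀ i j, r i = 2 → r j = 3 → False) : False :=
  dead_lin_of E hIH h2 hx hcov hM hl hex h5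
    (fun _ hA0 hA1 hA hi hu hq => Cfsg.Agent.H67.RC.dead_dec E hIH h2 hx hcov hM hl hA0 hA1 hA hi hu hA6 hq)
    (fun θ _ hδ hsq hθs hcm hs => Cfsg.Agent.H8.RC.dead_her E h2 hx hcov hM hl θ hδ hsq hθs hcm hs hex)

end Cfsg.Agent.H810.RC
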