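import Cfsg.Agent.H810.RC.Five
import Cfsg.Agent.H810.RC.DeadLin

/-!
# S3510, row D: boxes D9 and D7b, final forms (helper810)

* `dead_five` : `q = 5`, `dim V = 4`, members of orders 2 and 3, linear lifts;
* `dead_lin_all` : linear lifts, `q` odd, `(q, dim V) ≠ (3, 4)`.
-/

set_option autoImplicit false
open Cfsg

namespace Cfsg.Agent.H810.RC

open MulAction Module Cfsg.Agent.H106.RC Cfsg.Agent.H520.RC Cfsg.Agent.H727.GW

variable {F : Type} {V : Type} [Field F] [Finite F] [AddCommGroup V] [Module F V] [FiniteDimensional F V]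
  {B : LinearMap.BilinForm F V} {G : Type} [Group G] [Finite G] {Ω : Type} [Finite Ω] [Nonempty Ω] [MulAction G Ω]
  {N : Subgroup G} {ρ : ↥(Sp B) →* G} {ι : Type} [Finite ι] {x : ι → G} {r : ι → ℕ} {M : ι → SS B}

/-- **D9** -/
theorem dead_five (E : SpEnv Ω N ρ) (hIH : IH (Nat.card N)) (hx : PF x r) (hcov : Cov Ω x)
    (hM : ∀ i, Lf ρ (x i) (M i)) (hl : ∀ i, (M i).IsLin)
    (hA6 : ∀ g : MulAut (alternatingGroup (Fin 6)), orderOf g ≠ 6 → RCe (alternatingGroup (Fin 6)) g)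
    (h5 : Nat.card F = 5) (h4 : finrank F V = 4) (i j : ι) (hi : r i = 2) (hj : r j = 3) : False := by
  have h2 : (2 : F) ≠ 0 := by
    have := Fintype.ofFinite F
    intro h
    have h6 := FiniteField.cast_card_eq_zero F
    rw [← Nat.card_eq_fintype_card, h5] at h6
    have h7 : (5 : F) = 0 := by exact_mod_cast h6
    have h1 : (1 : F) = 0 := by linear_combination h7 - 2 * h
    exact one_ne_zero h1
  refine dead_five_of E hIH hx hcov hM hl h5 h4 ?_ i j hi hj
  intro A hA0 hA1 hA hAi hu hq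
  exact Cfsg.Agent.H67.RC.dead_dec E hIH h2 hx hcov hM hl hA0 hA1 hA hAi hu hA6 (Or.inr (Or.inr ⟨by omega, hq⟩))

/-- **D7b + D9** : linear lifts, `q` odd, not `PSp_4(3)` -/
theorem dead_lin_all (E : SpEnv Ω N ρ) (hIH : IH (Nat.card N)) (h2 : (2 : F) ≠ 0) (hx : PF x r) (hcov : Cov Ω x)
    (hM : ∀ i, Lf ρ (x i) (M i)) (hl : ∀ i, (M i).IsLin)
    (hA6 : ∀ g : MulAut (alternatingGroup (Fin 6)), orderOf g ≠ 6 → RCe (alternatingGroup (Fin 6)) g)
    (hex : ¬ (Nat.card F = 3 ∧ finrank F V = 4)) : False :=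
  dead_lin E hIH h2 hx hcov hM hl hA6 hex
    (fun h5 h4 i j hi hj => dead_five E hIH hx hcov hM hl hA6 h5 h4 i j hi hj)

end Cfsg.Agent.H810.RC
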