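import Cfsg.Agent.H520.RC.SpDefs

/-!
# S3510, row D, box D7b: linear algebra (helper810)

* `compl`, `nd_orth`, `inv_orth` : orthogonal complement of a nondegenerate subspace;
* `comm_lf` : lifts of commuting elements of different prime orders commute;
* `exists_unip` : an element of order `p` with a linear lift is the image of an isometry `t` with `t ^ p = 1`;
* `plane_unip` : an isometry of order `p` on an invariant nondegenerate plane is a transvection; the `p'`-lifts are
  scalars there;
* `ord_five` : prime orders of maps of a plane over `F_5`.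
-/

set_option autoImplicit false
open Cfsg

namespace Cfsg.Agent.H810.RC

open MulAction Module Cfsg.Agent.H106.RC Cfsg.Agent.H520.RC Cfsg.Agent.H727.GW

section orth

variable {F : Type*} {V : Type*} [Field F] [AddCommGroup V] [Module F V] [FiniteDimensional F V]
  {B : LinearMap.BilinForm F V}

/-- nondegenerate subspace -/
def Nd (B : LinearMap.BilinForm F V) (A : Submodule F V) : Prop := ∀ a ∈ A, (∀ b ∈ A, B a b = 0) → a = 0

omit [FiniteDimensional F V] in
theorem mem_orth (h : NAlt B) {A : Submodule F V} {v : V} : v ∈ B.orthogonal A ↔ ∀ a ∈ A, B v a = 0 := by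
  rw [LinearMap.BilinForm.mem_orthogonal_iff]
  constructor
  · intro hv a ha
    exact h.swap0 (hv a ha)
  · intro hv a ha
    exact h.swap0 (hv a ha)

theorem compl (h : NAlt B) {A : Submodule F V} (hA : Nd B A) : IsCompl A (B.orthogonal A) := by
  have hr : B.IsRefl := fun x y hxy => h.swap0 hxy
  rw [LinearMap.BilinForm.isCompl_orthogonal_iff_disjoint hr, Submodule.disjoint_def]
  intro x hx hx'
  exact hA x hx ((mem_orth h).1 hx')

theorem finrank_orth (h : NAlt B) {A : Submodule F V} (hA : Nd B A) :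
    finrank F A + finrank F (B.orthogonal A) = finrank F V := Submodule.finrank_add_eq_of_isCompl (compl h hA)

theorem decomp (h : NAlt B) {A : Submodule F V} (hA : Nd B A) (v : V) :
    ∃ a ∈ A, ∃ b ∈ B.orthogonal A, v = a + b := by
  have h1 : v ∈ A ⊔ B.orthogonal A := by rw [(compl h hA).sup_eq_top]; trivial
  obtain ⟨a, ha, b, hb, e⟩ := Submodule.mem_sup.1 h1
  exact ⟨a, ha, b, hb, e.symm⟩

theorem nd_orth (h : NAlt B) {A : Submodule F V} (hA : Nd B A) : Nd B (B.orthogonal A) := by
  intro x hx hx'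
  apply h.nd
  intro v
  obtain ⟨a, ha, b, hb, rfl⟩ := decomp h hA v
  rw [map_add, (mem_orth h).1 hx a ha, hx' b hb, add_zero]

theorem inv_orth (h : NAlt B) {A : Submodule F V} {L : SS B} (hl : L.IsLin) (hi : ∀ v ∈ A, L v ∈ A) :
    ∀ v ∈ B.orthogonal A, L v ∈ B.orthogonal A := by
  intro v hv
  rw [mem_orth h] at hv ⊢
  have h1 : A.map (hl.lin : V →ₗ[F] V) ≤ A := by
    rintro _ ⟨a, ha, rfl⟩
    exact hi a ha
  have h2 : A.map (hl.lin : V →ₗ[F] V) = A :=
    Submodule.eq_of_le_of_finrank_eq h1 (LinearEquiv.finrank_map_eq hl.lin A)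
  intro a ha
  rw [← h2] at ha
  obtain ⟨a', ha', rfl⟩ := ha
  show B (L v) (L a') = 0
  rw [hl.form, hv a' ha', mul_zero]

theorem even_nd (h : NAlt B) {A : Submodule F V} (hA : Nd B A) : Even (finrank F A) :=
  even_finrank _ A (B.restrict A) (fun x => h.alt x.1) (fun x hx => Subtype.ext (hA x.1 x.2 fun b hb => hx ⟨b, hb⟩)) rfl

theorem orth_ne_bot (h : NAlt B) {A : Submodule F V} (hA : Nd B A) (h1 : A ≠ ⊤) : B.orthogonal A ≠ ⊥ := by
  intro h2
  have h3 := (compl h hA).sup_eq_top
  rw [h2, sup_bot_eq] at h3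
  exact h1 h3

theorem orth_ne_top (h : NAlt B) {A : Submodule F V} (hA : Nd B A) (h1 : A ≠ ⊥) : B.orthogonal A ≠ ⊤ := by
  intro h2
  have h3 := (compl h hA).inf_eq_bot
  rw [h2, inf_top_eq] at h3
  exact h1 h3

end orth

section lifts

variable {F : Type*} {V : Type*} [Field F] [AddCommGroup V] [Module F V]
  {B : LinearMap.BilinForm F V} {G : Type*} [Group G] {Ω : Type*} [MulAction G Ω]
  {N : Subgroup G} {ρ : ↥(Sp B) →* G}

theorem exists_vec (E : SpEnv Ω N ρ) : ∃ v : V, v ≠ 0 := by
  have h1 := E.dim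
  have : Nontrivial V := Module.nontrivial_of_finrank_pos (R := F) (by omega)
  exact exists_ne 0

/-- iterates of a linear map -/
theorem iter_smul {f : V → V} (hf : ∀ (a : F) (v : V), f (a • v) = a • f v) (n : ℕ) (a : F) (v : V) :
    f^[n] (a • v) = a • f^[n] v := by
  induction n generalizing v with
  | zero => rfl
  | succ n ih => rw [Function.iterate_succ_apply, hf, ih, Function.iterate_succ_apply]

theorem iter_comm {f g : V → V} {a : F} (hf : ∀ (a : F) (v : V), f (a • v) = a • f v)
    (h : ∀ v, f (g v) = a • g (f v)) (n : ℕ) (v : V) : f^[n] (g v) = a ^ n • g (f^[n] v) := by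
  induction n generalizing v with
  | zero => rw [pow_zero, one_smul]; rfl
  | succ n ih =>
    rw [Function.iterate_succ_apply, h, iter_smul hf, ih, smul_smul, Function.iterate_succ_apply, pow_succ']

theorem comm_lf [FiniteDimensional F V] (E : SpEnv Ω N ρ) {x y : G} {M L : SS B} (hM : Lf ρ x M) (hL : Lf ρ y L)
    (hMl : M.IsLin) (hLl : L.IsLin) (hc : x * y = y * x) {m n : ℕ} (hmn : m.Coprime n) (hx : x ^ m = 1)
    (hy : y ^ n = 1) (v : V) : M (L v) = L (M v) := by
  obtain ⟨a, ha, h1⟩ := E.lf_comm hM hL hc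
  obtain ⟨b, hb, h2⟩ := E.pow_scal hM hx
  obtain ⟨c, hc, h3⟩ := E.pow_scal hL hy
  obtain ⟨w, hw⟩ := exists_vec E
  have e1 : a ^ m = 1 := by
    have h4 := iter_comm (f := M) (g := L) (fun a v => hMl.map_smul a v) h1 m w
    rw [h2, h2, hLl.map_smul] at h4
    have h5 : (b - a ^ m * b) • L w = 0 := by rw [sub_smul, mul_smul, ← h4, sub_self]
    rcases smul_eq_zero.1 h5 with h6 | h6
    · have h7 : (1 - a ^ m) * b = 0 := by linear_combination h6
      rcases mul_eq_zero.1 h7 with h8 | h8
      · exact (sub_eq_zero.1 h8).symm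
      · exact absurd h8 hb
    · exfalso
      apply hw
      apply L.injective
      rw [h6, L.map_zero]
  have e2 : a ^ n = 1 := by
    have h1' : ∀ v, L (M v) = a⁻¹ • M (L v) := fun v => by
      rw [h1, smul_smul, inv_mul_cancel₀ ha, one_smul]
    have h4 := iter_comm (f := L) (g := M) (fun a v => hLl.map_smul a v) h1' n w
    rw [h3, h3, hMl.map_smul] at h4
    have h5 : (c - a⁻¹ ^ n * c) • M w = 0 := by rw [sub_smul, mul_smul, ← h4, sub_self]
    rcases smul_eq_zero.1 h5 with h6 | h6
    · have h7 : (1 - a⁻¹ ^ n) * c = 0 := by linear_combination h6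
      rcases mul_eq_zero.1 h7 with h8 | h8
      · have h9 := (sub_eq_zero.1 h8).symm
        rw [inv_pow, inv_eq_one] at h9
        exact h9
      · exact absurd h8 hc
    · exfalso
      apply hw
      apply M.injective
      rw [h6, M.map_zero]
  have e3 : a = 1 := by
    have h4 : orderOf a ∣ m := orderOf_dvd_of_pow_eq_one e1
    have h5 : orderOf a ∣ n := orderOf_dvd_of_pow_eq_one e2
    have h6 : orderOf a ∣ 1 := by
      rw [← hmn.gcd_eq_one]
      exact Nat.dvd_gcd h4 h5
    exact orderOf_eq_one_iff.1 (Nat.dvd_one.1 h6)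
  rw [h1, e3, one_smul]

theorem exists_unip [Finite F] [FiniteDimensional F V] (E : SpEnv Ω N ρ) {p : ℕ} (hp : p.Prime) [CharP F p] {x : G}
    {M : SS B} (hM : Lf ρ x M) (hl : M.IsLin) (hx : x ^ p = 1) :
    ∃ (t : ↥(Sp B)) (c : F), c ≠ 0 ∧ (∀ v, M v = c • t.1 v) ∧ x = ρ t ∧ ∀ v, t.1^[p] v = v := by
  have : Fact p.Prime := ⟨hp⟩
  obtain ⟨b, hb, h2⟩ := E.pow_scal hM hx
  have hinj : Function.Injective (fun a : F => a ^ p) := frobenius_inj F p
  obtain ⟨c, hc⟩ := (Finite.injective_iff_surjective.1 hinj) b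
  change c ^ p = b at hc
  have hc0 : c ≠ 0 := by
    rintro rfl
    rw [zero_pow hp.ne_zero] at hc
    exact hb hc.symm
  obtain ⟨w, hw⟩ := exists_vec E
  obtain ⟨w', hw'⟩ := E.form.exists_one hw
  have hlp : ∀ n : ℕ, ∀ u v, B (M^[n] u) (M^[n] v) = M.l ^ n * B u v := by
    intro n
    induction n with
    | zero => intro u v; rw [pow_zero, one_mul]; rfl
    | succ n ih =>
      intro u v
      rw [Function.iterate_succ_apply, Function.iterate_succ_apply, ih, hl.form, pow_succ, mul_assoc]
  have hl2 : M.l = c * c := by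
    apply hinj
    show M.l ^ p = (c * c) ^ p
    have h3 := hlp p w w'
    rw [h2, h2, hw', mul_one, _root_.map_smul, LinearMap.map_smul₂, hw', smul_eq_mul, smul_eq_mul, mul_one] at h3
    rw [← h3, mul_pow, hc]
  let t0 : V ≃ₗ[F] V := (hl.lin).trans (LinearEquiv.smulOfUnit (Units.mk0 c⁻¹ (inv_ne_zero hc0)))
  have ht0 : ∀ v, t0 v = c⁻¹ • M v := fun v => rfl
  have htm : t0 ∈ Sp B := by
    intro u v
    rw [ht0, ht0, _root_.map_smul, LinearMap.map_smul₂, hl.form, hl2, smul_eq_mul, smul_eq_mul]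
    field_simp
  refine ⟨⟨t0, htm⟩, c, hc0, ?_, ?_, ?_⟩
  · intro v
    show M v = c • t0 v
    rw [ht0, smul_smul, mul_inv_cancel₀ hc0, one_smul]
  · apply E.eq_of_lf hM hc0
    intro v
    show M v = c • t0 v
    rw [ht0, smul_smul, mul_inv_cancel₀ hc0, one_smul]
  · intro v
    have h3 : ∀ (n : ℕ) (v : V), t0^[n] v = (c⁻¹) ^ n • M^[n] v := by
      intro n
      induction n with
      | zero => intro v; rw [pow_zero, one_smul]; rfl
      | succ n ih =>
        intro v
        rw [Function.iterate_succ_apply, ih, ht0, iter_smul (fun a v => hl.map_smul a v), smul_smul,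
          Function.iterate_succ_apply, pow_succ]
    show t0^[p] v = v
    rw [h3, h2, smul_smul, inv_pow, hc, inv_mul_cancel₀ hb, one_smul]

end lifts

section plane

variable {F : Type*} {V : Type*} [Field F] [AddCommGroup V] [Module F V] [FiniteDimensional F V]
  {B : LinearMap.BilinForm F V}

omit [FiniteDimensional F V] in
/-- a fixed vector of a unipotent isometry -/
theorem exists_fix {p : ℕ} (hp : p.Prime) [CharP F p] {t : V ≃ₗ[F] V} (ht : ∀ v, t^[p] v = v)
    {A : Submodule F V} (hA : A ≠ ⊥) (hi : ∀ v ∈ A, t v ∈ A) : ∃ e ∈ A, e ≠ 0 ∧ t e = e := by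
  classical
  have : Fact p.Prime := ⟨hp⟩
  obtain ⟨v, hv, hv0⟩ := Submodule.exists_mem_ne_zero_of_ne_bot hA
  have : Nontrivial V := ⟨⟨v, 0, hv0⟩⟩
  have : CharP (Module.End F V) p := charP_of_injective_algebraMap (algebraMap F (Module.End F V)).injective p
  let D : Module.End F V := (t : V →ₗ[F] V) - 1
  have hD : ∀ v, D v = t v - v := fun v => rfl
  have hDp : D ^ p = 0 := by
    have h1 : D ^ p = (t : V →ₗ[F] V) ^ p - 1 ^ p := sub_pow_char_of_commute p (Commute.one_right _)
    rw [h1, one_pow, sub_eq_zero]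
    apply LinearMap.ext
    intro v
    rw [Module.End.pow_apply]
    exact ht v
  have hex : ∃ k, (D ^ k) v = 0 := ⟨p, by rw [hDp]; rfl⟩
  have hk0 : Nat.find hex ≠ 0 := by
    intro h0
    have := Nat.find_spec hex
    rw [h0, pow_zero] at this
    exact hv0 this
  obtain ⟨k, hk⟩ := Nat.exists_eq_succ_of_ne_zero hk0
  have hmem : ∀ n : ℕ, (D ^ n) v ∈ A := by
    intro n
    induction n with
    | zero => exact hv
    | succ n ih =>
      rw [pow_succ', Module.End.mul_apply, hD]
      exact A.sub_mem (hi _ ih) ih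
  refine ⟨(D ^ k) v, hmem k, ?_, ?_⟩
  · exact Nat.find_min hex (by omega)
  · have h1 := Nat.find_spec hex
    rw [hk, pow_succ', Module.End.mul_apply, hD, sub_eq_zero] at h1
    exact h1

/-- a hyperbolic basis of a nondegenerate plane -/
theorem plane_basis (h : NAlt B) {A : Submodule F V} (hA : Nd B A) (h2 : finrank F A = 2) {e : V} (he : e ∈ A)
    (he0 : e ≠ 0) : ∃ f ∈ A, B e f = 1 ∧ ∀ v ∈ A, v = (B v f) • e + (B e v) • f := by
  obtain ⟨f0, hf0, hef0⟩ : ∃ f ∈ A, B e f ≠ 0 := by
    by_contra hno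
    push Not at hno
    exact he0 (hA e he hno)
  refine ⟨(B e f0)⁻¹ • f0, A.smul_mem _ hf0, ?_, ?_⟩
  · rw [_root_.map_smul, smul_eq_mul, inv_mul_cancel₀ hef0]
  · set f := (B e f0)⁻¹ • f0 with hf
    have hfA : f ∈ A := A.smul_mem _ hf0
    have hef : B e f = 1 := by rw [hf, _root_.map_smul, smul_eq_mul, inv_mul_cancel₀ hef0]
    have hfe : B f e = -1 := by rw [h.swap, hef]
    have hli : LinearIndependent F ![e, f] := by
      rw [LinearIndependent.pair_iff]
      intro s t hst
      have h3 := congrArg (fun v => B e v) hst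
      have h4 := congrArg (fun v => B v f) hst
      simp only [map_add, _root_.map_smul, LinearMap.add_apply, LinearMap.smul_apply, smul_eq_mul, h.alt, hef,
        mul_zero, mul_one, zero_add, add_zero, map_zero, LinearMap.zero_apply] at h3 h4
      exact ⟨h4, h3⟩
    have hspan : Submodule.span F (Set.range ![e, f]) = A := by
      apply Submodule.eq_of_le_of_finrank_eq
      · rw [Submodule.span_le]
        rintro _ ⟨i, rfl⟩
        fin_cases i
        · exact he
        · exact hfA
      · rw [finrank_span_eq_card hli, h2]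
        rfl
    intro v hv
    rw [← hspan, Matrix.range_cons_cons_empty, Submodule.mem_span_pair] at hv
    obtain ⟨a, b, rfl⟩ := hv
    have h3 : B (a • e + b • f) f = a := by
      rw [map_add, LinearMap.add_apply, LinearMap.map_smul₂, LinearMap.map_smul₂, hef, h.alt, smul_zero, add_zero,
        smul_eq_mul, mul_one]
    have h4 : B e (a • e + b • f) = b := by
      rw [map_add, _root_.map_smul, _root_.map_smul, hef, h.alt, smul_zero, zero_add, smul_eq_mul, mul_one]
    rw [h3, h4]

/-- an isometry of order `p` of an invariant nondegenerate plane -/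
theorem plane_unip (h : NAlt B) {p : ℕ} (hp : p.Prime) [CharP F p] {t : ↥(Sp B)} (ht : ∀ v, t.1^[p] v = v)
    {A : Submodule F V} (hA : Nd B A) (h2 : finrank F A = 2) (hi : ∀ v ∈ A, t.1 v ∈ A)
    (hne : ∃ v ∈ A, t.1 v ≠ v) :
    ∃ e ∈ A, e ≠ 0 ∧ ∃ c : F, c ≠ 0 ∧ (∀ v ∈ A, t.1 v = (tv h e c).1 v) ∧
      ∀ (L : SS B) (n : ℕ), L.IsLin → (∀ v ∈ A, L v ∈ A) → (∀ v, L (t.1 v) = t.1 (L v)) → (n : F) ≠ 0 →
        (∃ b : F, ∀ v, L^[n] v = b • v) → L.ScalOn A := by
  have hA0 : A ≠ ⊥ := by
    rintro rfl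
    rw [finrank_bot] at h2
    omega
  obtain ⟨e, he, he0, hte⟩ := exists_fix hp ht hA0 hi
  obtain ⟨f, hf, hef, hdec⟩ := plane_basis h hA h2 he he0
  have hfe : B f e = -1 := by rw [h.swap, hef]
  obtain ⟨β, hβ⟩ : ∃ β : F, t.1 f = β • e + f := by
    have h3 := hdec _ (hi f hf)
    have h4 : B e (t.1 f) = 1 := by
      rw [← hef, ← t.2 e f, hte]
    rw [h4, one_smul] at h3
    exact ⟨_, h3⟩
  have hact : ∀ v ∈ A, t.1 v = v + (β * B e v) • e := by
    intro v hv
    have h3 := hdec v hv
    have h5 : t.1 v = (B v f) • e + (B e v) • (β • e + f) := by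
      conv_lhs => rw [h3]
      rw [_root_.map_add, _root_.map_smul, _root_.map_smul, hte, hβ]
    rw [h5]
    conv_rhs => rw [show v + (β * B e v) • e = ((B v f) • e + (B e v) • f) + (β * B e v) • e by rw [← h3]]
    rw [smul_add, smul_smul, mul_comm β]
    abel
  have hβ0 : β ≠ 0 := by
    rintro rfl
    obtain ⟨v, hv, hv'⟩ := hne
    apply hv'
    rw [hact v hv, zero_mul, zero_smul, add_zero]
  refine ⟨e, he, he0, -β, neg_ne_zero.2 hβ0, ?_, ?_⟩
  · intro v hv
    rw [hact v hv, tv_apply, h.swap v e, neg_mul_neg]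
  · intro L n hl hLA hLt hn hLn
    obtain ⟨b, hb⟩ := hLn
    -- L e = a e
    have h3 := hact _ (hLA e he)
    rw [← hLt, hte] at h3
    have h4 : B e (L e) = 0 := by
      have h5 : (β * B e (L e)) • e = 0 := by
        have h6 := h3
        rw [eq_comm, add_eq_left] at h6
        exact h6
      rcases smul_eq_zero.1 h5 with h6 | h6
      · rcases mul_eq_zero.1 h6 with h7 | h7
        · exact absurd h7 hβ0
        · exact h7
      · exact absurd h6 he0
    obtain ⟨a, ha⟩ : ∃ a : F, L e = a • e := by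
      have h5 := hdec _ (hLA e he)
      rw [h4, zero_smul, add_zero] at h5
      exact ⟨_, h5⟩
    have ha0 : a ≠ 0 := by
      rintro rfl
      rw [zero_smul] at ha
      apply he0
      apply L.injective
      rw [ha, L.map_zero]
    obtain ⟨x, y, hxy⟩ : ∃ x y : F, L f = x • e + y • f := ⟨_, _, hdec _ (hLA f hf)⟩
    -- y = a
    have hya : y = a := by
      have h5 := hact _ (hLA f hf)
      rw [← hLt, hβ, L.map_add, hl.map_smul, ha, smul_smul, add_comm, add_right_inj] at h5
      have h6 : B e (L f) = y := by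
        rw [hxy, map_add, _root_.map_smul, _root_.map_smul, h.alt, hef, smul_zero, zero_add, smul_eq_mul, mul_one]
      rw [h6] at h5
      have h7 : (β * a - β * y) • e = 0 := by rw [sub_smul, h5, sub_self]
      rcases smul_eq_zero.1 h7 with h8 | h8
      · have h9 : β * (a - y) = 0 := by linear_combination h8
        rcases mul_eq_zero.1 h9 with h10 | h10
        · exact absurd h10 hβ0
        · exact (sub_eq_zero.1 h10).symm
      · exact absurd h8 he0
    subst hya
    have hLe : ∀ k : ℕ, L^[k] e = y ^ k • e := by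
      intro k
      induction k with
      | zero => rw [pow_zero, one_smul]; rfl
      | succ k ih => rw [Function.iterate_succ_apply', ih, hl.map_smul, ha, smul_smul, pow_succ]
    have hLf : ∀ k : ℕ, L^[k + 1] f = ((k + 1 : ℕ) * (y ^ k * x)) • e + y ^ (k + 1) • f := by
      intro k
      induction k with
      | zero =>
        show L f = _
        rw [hxy, pow_zero, zero_add, pow_one, Nat.cast_one, one_mul, one_mul]
      | succ k ih =>
        rw [Function.iterate_succ_apply', ih, L.map_add, hl.map_smul, hl.map_smul, ha, hxy, smul_add, smul_smul,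
          smul_smul, smul_smul, ← add_assoc, ← add_smul, ← pow_succ]
        congr 2
        push_cast
        ring
    have hx0 : x = 0 := by
      obtain ⟨k, rfl⟩ : ∃ k, n = k + 1 := by
        rcases n with _ | k
        · rw [Nat.cast_zero] at hn
          exact absurd rfl hn
        · exact ⟨k, rfl⟩
      have h5 := hLf k
      rw [hb] at h5
      have h6 := congrArg (fun v => B v f) h5
      simp only [map_add, LinearMap.add_apply, LinearMap.map_smul₂, h.alt, hef, smul_eq_mul, mul_one, mul_zero,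
        add_zero] at h6
      have h7 : ((k + 1 : ℕ) : F) * (y ^ k * x) = 0 := h6.symm
      rcases mul_eq_zero.1 h7 with h8 | h8
      · exact absurd h8 hn
      · rcases mul_eq_zero.1 h8 with h9 | h9
        · exact absurd h9 (pow_ne_zero k ha0)
        · exact h9
    refine ⟨y, ha0, fun v hv => ?_⟩
    have h5 := hdec v hv
    have h6 : L v = (B v f) • L e + (B e v) • L f := by
      conv_lhs => rw [h5]
      rw [L.map_add, hl.map_smul, hl.map_smul]
    rw [h6, ha, hxy, hx0, zero_smul, zero_add, smul_comm _ y, smul_comm _ y, ← smul_add, ← h5]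

/-- prime orders of maps on a subspace -/
theorem ord_dvd [Finite F] {L : SS B} (hl : L.IsLin) {A : Submodule F V} (hi : ∀ v ∈ A, L v ∈ A) {r : ℕ}
    (hr : r.Prime) (hb : ∃ b : F, b ≠ 0 ∧ ∀ v, L^[r] v = b • v) (hns : ¬ L.ScalOn A) :
    r ∣ Nat.card (A ≃ₗ[F] A) := by
  by_contra hnd
  have hco : r.Coprime (Nat.card (A ≃ₗ[F] A)) := (hr.coprime_iff_not_dvd).2 hnd
  apply hns
  let g0 : A →ₗ[F] A := (hl.lin : V →ₗ[F] V).restrict hi
  have hg0 : Function.Injective g0 := by
    intro u v huv
    apply Subtype.ext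
    apply L.injective
    exact congrArg Subtype.val huv
  let g : A ≃ₗ[F] A := LinearEquiv.ofInjectiveEndo g0 hg0
  have hg : ∀ v : A, ((g v : A) : V) = L v := by
    intro v
    rfl
  let Z : Subgroup (A ≃ₗ[F] A) :=
    { carrier := {g | ∃ b : F, b ≠ 0 ∧ ∀ v, g v = b • v}
      mul_mem' := by
        rintro a b ⟨c, hc, h1⟩ ⟨d, hd, h2⟩
        refine ⟨c * d, mul_ne_zero hc hd, fun v => ?_⟩
        show a (b v) = _
        rw [h2, _root_.map_smul, h1, smul_smul, mul_comm]
      one_mem' := ⟨1, one_ne_zero, fun v => by rw [one_smul]; rfl⟩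
      inv_mem' := by
        rintro a ⟨c, hc, h1⟩
        refine ⟨c⁻¹, inv_ne_zero hc, fun v => ?_⟩
        apply a.injective
        show a (a.symm v) = _
        rw [LinearEquiv.apply_symm_apply, _root_.map_smul, h1, smul_smul, inv_mul_cancel₀ hc, one_smul] }
  have hgr : g ^ r ∈ Z := by
    obtain ⟨b, hb0, hb⟩ := hb
    refine ⟨b, hb0, fun v => ?_⟩
    apply Subtype.ext
    have h1 : ∀ n : ℕ, (((g ^ n) v : A) : V) = L^[n] v := by
      intro n
      induction n with
      | zero => rfl
      | succ n ih =>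
        rw [pow_succ', Function.iterate_succ_apply', ← ih]
        exact hg _
    rw [h1, hb]
    rfl
  have hgn : g ^ (Nat.card (A ≃ₗ[F] A)) = 1 := pow_card_eq_one'
  have hgZ : g ∈ Z := by
    have h1 := Nat.gcd_eq_gcd_ab r (Nat.card (A ≃ₗ[F] A))
    rw [hco.gcd_eq_one] at h1
    have h2 : g = (g ^ r) ^ (Nat.gcdA r (Nat.card (A ≃ₗ[F] A))) := by
      have h3 : g ^ ((1 : ℕ) : ℤ) = g := by simp
      conv_lhs => rw [← h3, h1, zpow_add, zpow_mul, zpow_mul, zpow_natCast, zpow_natCast, hgn, one_zpow, mul_one]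
    rw [h2]
    exact Z.zpow_mem hgr _
  obtain ⟨b, hb0, hb⟩ := hgZ
  refine ⟨b, hb0, fun v hv => ?_⟩
  have h1 := congrArg Subtype.val (hb ⟨v, hv⟩)
  rw [hg] at h1
  exact h1

omit [FiniteDimensional F V] in
theorem card_plane [Finite F] (h5 : Nat.card F = 5) {A : Submodule F V} (h2 : finrank F A = 2) :
    Nat.card (A ≃ₗ[F] A) = 480 := by
  classical
  have := Fintype.ofFinite F
  have : FiniteDimensional F A := FiniteDimensional.of_finrank_pos (by omega)
  let e : A ≃ₗ[F] (Fin 2 → F) := LinearEquiv.ofFinrankEq _ _ (by rw [h2]; simp)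
  have h1 : Nat.card (A ≃ₗ[F] A) = Nat.card (GL (Fin 2) F) := by
    refine Nat.card_congr ((LinearMap.GeneralLinearGroup.generalLinearEquiv F A).symm.trans
      ((LinearMap.GeneralLinearGroup.congrLinearEquiv e).trans Matrix.GeneralLinearGroup.toLin.symm)).toEquiv
  rw [h1, Matrix.card_GL_field, ← Nat.card_eq_fintype_card, h5, Fin.prod_univ_two]
  norm_num

theorem ord_five [Finite F] (h5 : Nat.card F = 5) {L : SS B} (hl : L.IsLin) {A : Submodule F V}
    (h2 : finrank F A = 2) (hi : ∀ v ∈ A, L v ∈ A) {r : ℕ} (hr : r.Prime) (hr5 : r.Coprime (Nat.card F))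
    (hb : ∃ b : F, b ≠ 0 ∧ ∀ v, L^[r] v = b • v) (hns : ¬ L.ScalOn A) : r = 2 ∨ r = 3 := by
  have h1 := ord_dvd hl hi hr hb hns
  rw [card_plane h5 h2, show 480 = 2 ^ 5 * 3 * 5 by norm_num] at h1
  rw [h5] at hr5
  rcases (Nat.Prime.dvd_mul hr).1 h1 with h3 | h3
  · rcases (Nat.Prime.dvd_mul hr).1 h3 with h4 | h4
    · left
      exact (Nat.prime_dvd_prime_iff_eq hr Nat.prime_two).1 (hr.dvd_of_dvd_pow h4)
    · right
      exact (Nat.prime_dvd_prime_iff_eq hr Nat.prime_three).1 h4
  · exfalso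
    have h4 := (Nat.prime_dvd_prime_iff_eq hr Nat.prime_five).1 h3
    rw [h4] at hr5
    norm_num at hr5

end plane

end Cfsg.Agent.H810.RC
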